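import Mathlib

/-!
# A vertex of the prime graph joined to all others: unboundedly many groups
-/

set_option autoImplicit false

namespace Cfsg.Agent.H149.S3527Core

theorem exists_type0 (G : Type*) [Group G] [Finite G] : ∃ (H : Type) (_ : Group H) (_ : Finite H), Nonempty (G ≃* H) := by
  have : Small.{0} G := Countable.toSmall G
  exact ⟨Shrink.{0} G, inferInstance, inferInstance, ⟨Shrink.mulEquiv.symm⟩⟩

/-- `orderOf` in `G × V`, `V` elementary abelian of exponent `p`. -/
theorem exists_prod {G V : Type*} [Group G] [Group V] {p : ℕ} (hV : ∀ v : V, v ^ p = 1)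
    {r s : ℕ} (hr : r.Prime) (hs : s.Prime) (hrp : r ≠ p) (hsp : s ≠ p) (hp : p.Prime) :
    (∃ g : G, orderOf g = r * s) ↔ ∃ g : G × V, orderOf g = r * s := by
  constructor
  · rintro ⟨g, hg⟩
    exact ⟨(g, 1), by rw [Prod.orderOf]; simp [hg]⟩
  · rintro ⟨⟨g, v⟩, hg⟩
    refine ⟨g, ?_⟩
    rw [Prod.orderOf] at hg
    have h1 : orderOf v ∣ p := orderOf_dvd_of_pow_eq_one (hV v)
    have h2 : orderOf v ∣ r * s := by rw [← hg]; exact Nat.dvd_lcm_right _ _
    have h3 : orderOf v = 1 := by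
      rcases (Nat.dvd_prime hp).1 h1 with h | h
      · exact h
      · exfalso
        rw [h] at h2
        rcases (Nat.Prime.dvd_mul hp).1 h2 with h4 | h4
        · exact hrp ((Nat.prime_dvd_prime_iff_eq hp hr).1 h4).symm
        · exact hsp ((Nat.prime_dvd_prime_iff_eq hp hs).1 h4).symm
    rw [h3] at hg
    simpa using hg

/-- If `p` is joined to all other vertices, then there are arbitrarily large groups with the same prime graph. -/
theorem unbounded {G : Type*} [Group G] [Finite G] {p : ℕ} (hp : p.Prime) (hpG : p ∣ Nat.card G)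
    (hadj : ∀ q : ℕ, q.Prime → q ∣ Nat.card G → q ≠ p → ∃ g : G, orderOf g = p * q) (n : ℕ) :
    ∃ (H : Type) (_ : Group H) (_ : Finite H),
      ((∀ p : ℕ, p.Prime → (p ∣ Nat.card G ↔ p ∣ Nat.card H)) ∧
      (∀ p q : ℕ, p.Prime → q.Prime → p ≠ q → ((∃ g : G, orderOf g = p * q) ↔ (∃ g : H, orderOf g = p * q)))) ∧
      n < Nat.card H := by
  obtain ⟨G₀, _, _, ⟨e⟩⟩ := exists_type0 G
  have : NeZero p := ⟨hp.ne_zero⟩
  have hV : ∀ v : Multiplicative (Fin n → ZMod p), v ^ p = 1 := by
    intro v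
    apply Multiplicative.toAdd.injective
    rw [toAdd_pow, toAdd_one]
    funext i
    simp
  have hcardG : Nat.card G₀ = Nat.card G := (Nat.card_congr e.toEquiv).symm
  have hcard : Nat.card (G₀ × Multiplicative (Fin n → ZMod p)) = Nat.card G * p ^ n := by
    rw [Nat.card_prod, hcardG, Nat.card_congr Multiplicative.toAdd, Nat.card_fun, Nat.card_zmod, Nat.card_fin]
  have hpr : ∀ r : ℕ, r.Prime → (r ∣ Nat.card G ↔ r ∣ Nat.card (G₀ × Multiplicative (Fin n → ZMod p))) := by
    intro r hr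
    rw [hcard]
    constructor
    · intro h; exact h.mul_right _
    · intro h
      rcases (Nat.Prime.dvd_mul hr).1 h with h1 | h1
      · exact h1
      · rw [(Nat.prime_dvd_prime_iff_eq hr hp).1 (hr.dvd_of_dvd_pow h1)]
        exact hpG
  have hG0 : ∀ m : ℕ, (∃ g : G, orderOf g = m) ↔ ∃ g : G₀, orderOf g = m := by
    intro m
    constructor
    · rintro ⟨g, hg⟩
      exact ⟨e g, by rw [MulEquiv.orderOf_eq, hg]⟩
    · rintro ⟨g, hg⟩
      exact ⟨e.symm g, by rw [MulEquiv.orderOf_eq, hg]⟩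
  have hkey : ∀ s : ℕ, s.Prime → s ≠ p → ((∃ g : G, orderOf g = p * s) ↔
      ∃ g : G₀ × Multiplicative (Fin n → ZMod p), orderOf g = p * s) := by
    intro s hs hsp
    constructor
    · rintro h
      obtain ⟨g, hg⟩ := (hG0 _).1 h
      exact ⟨(g, 1), by rw [Prod.orderOf]; simp [hg]⟩
    · rintro ⟨g, hg⟩
      apply hadj s hs _ hsp
      rw [hpr s hs]
      exact ((dvd_mul_left s p).trans hg.symm.dvd).trans (orderOf_dvd_natCard g)
  refine ⟨G₀ × Multiplicative (Fin n → ZMod p), inferInstance, inferInstance, ⟨hpr, ?_⟩, ?_⟩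
  · intro r s hr hs hrs
    by_cases h1 : r = p
    · subst h1
      exact hkey s hs (Ne.symm hrs)
    by_cases h2 : s = p
    · subst h2
      rw [mul_comm r s]
      exact hkey r hr hrs
    rw [hG0]
    exact exists_prod hV hr hs h1 h2 hp
  · rw [hcard]
    have h1 : n < p ^ n := Nat.lt_pow_self hp.one_lt
    have h2 : 0 < Nat.card G := Nat.card_pos
    nlinarith

end Cfsg.Agent.H149.S3527Core
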